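import Cfsg.Agent.H555.RV.Tools

/-!
# The Sylow count in a Hall `{s,p}`-subgroup (helper543)

* `mod_of_dom` : `|P| = p ^ c` a Sylow `p`-subgroup of `S`, `|N_S(P)| = s ^ b * n`, `s` prime to `n`,
  `|S| = s ^ a * p ^ c * m`: `D_{s,p}` implies `s ^ (a - b) ≡ 1 mod p`.
* `nd_of_count` : the contrapositive.
-/

set_option autoImplicit false

namespace Cfsg.Agent.H543.RV.G

open Subgroup Cfsg Cfsg.Agent.H571.DExt Cfsg.Agent.H988.CPi
open scoped Pointwise

universe u

variable {S : Type u} [Group S]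

theorem card_sub_of_le {A B : Subgroup S} (h : A ≤ B) : Nat.card (A.subgroupOf B) = Nat.card A :=
  Nat.card_congr (Subgroup.subgroupOfEquivOfLe h).toEquiv

theorem card_of_hall [Finite S] {s p a b m : ℕ} (hs : s.Prime) (hp : p.Prime) (hsp : p ≠ s)
    (hS : Nat.card S = s ^ a * p ^ b * m) (h2 : ¬ s ∣ m) (hm : ¬ p ∣ m) {K : Subgroup S}
    (hK : IsPiHall ({s, p} : Set ℕ) K) : Nat.card K = s ^ a * p ^ b := by
  have h1 := K.card_mul_index
  rw [hS] at h1
  refine (mul_unique (π := ({s, p} : Set ℕ)) hK.1 hK.2 ?_ ?_ h1)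
  · intro r hr hd
    rcases hr.dvd_mul.1 hd with h | h
    · left; exact (Nat.prime_dvd_prime_iff_eq hr hs).1 (hr.dvd_of_dvd_pow h)
    · right; exact (Nat.prime_dvd_prime_iff_eq hr hp).1 (hr.dvd_of_dvd_pow h)
  · rintro r hr hrπ hd
    rcases hrπ with rfl | h
    · exact h2 hd
    · rw [Set.mem_singleton_iff] at h
      subst h
      exact hm hd

theorem mod_of_dom [Finite S] {s p a b c m n : ℕ} (hs : s.Prime) (hp : p.Prime) (hsp : p ≠ s) (hS : Nat.card S = s ^ a * p ^ c * m)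
    (h2 : ¬ s ∣ m) (hm : ¬ p ∣ m) {P : Subgroup S} (hP : Nat.card P = p ^ c)
    (hN : Nat.card (normalizer (P : Set S)) = s ^ b * n) (hn : ¬ s ∣ n) (hD : Dom ({s, p} : Set ℕ) S) :
    s ^ (a - b) ≡ 1 [MOD p] := by
  classical
  have hf2 : Fact s.Prime := ⟨hs⟩
  have hfp : Fact p.Prime := ⟨hp⟩
  have hn0 : n ≠ 0 := by rintro rfl; exact hn (dvd_zero s)
  -- the `{2,p}`-part of `N(P)`
  obtain ⟨T⟩ : Nonempty (Sylow s (normalizer (P : Set S))) := inferInstance
  set T₀ : Subgroup S := (T : Subgroup (normalizer (P : Set S))).map (normalizer (P : Set S)).subtype with hT₀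
  have hT₀N : T₀ ≤ normalizer (P : Set S) := map_subtype_le _
  have hcT : Nat.card T₀ = s ^ b := by
    rw [hT₀, card_map_of_injective (subtype_injective _), T.card_eq_multiplicity, hN,
      Nat.factorization_mul (pow_ne_zero b hs.ne_zero) hn0, Nat.factorization_pow, Finsupp.add_apply, Finsupp.smul_apply,
      hs.factorization_self, Nat.factorization_eq_zero_of_not_dvd hn]
    simp
  have hX : PiN ({s, p} : Set ℕ) (Nat.card (T₀ ⊔ P : Subgroup S)) := by
    refine piN_sup hT₀N ?_ ?_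
    · rw [hcT]
      intro r hr hd
      left
      exact (Nat.prime_dvd_prime_iff_eq hr hs).1 (hr.dvd_of_dvd_pow hd)
    · rw [hP]
      intro r hr hd
      right
      exact (Nat.prime_dvd_prime_iff_eq hr hp).1 (hr.dvd_of_dvd_pow hd)
  obtain ⟨K₀, hK₀, hdom⟩ := hD
  obtain ⟨g, hg⟩ := hdom _ hX
  set K : Subgroup S := MulAut.conj g • K₀ with hKdef
  have hcK : Nat.card K = s ^ a * p ^ c := by
    rw [hKdef, Nat.card_congr (Subgroup.equivSMul (MulAut.conj g) K₀).toEquiv.symm]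
    exact card_of_hall hs hp hsp hS h2 hm hK₀
  have hTK : T₀ ≤ K := le_sup_left.trans hg
  have hPK : P ≤ K := le_sup_right.trans hg
  -- the Sylow `p`-subgroup of `K`
  have hPp : IsPGroup p (P.subgroupOf K) := IsPGroup.of_card (n := c) (by rw [card_sub_of_le hPK, hP])
  have hidx : (P.subgroupOf K).index = s ^ a := by
    have h1 := (P.subgroupOf K).card_mul_index
    rw [card_sub_of_le hPK, hP, hcK, mul_comm (s ^ a)] at h1
    exact Nat.eq_of_mul_eq_mul_left (pow_pos hp.pos c) h1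
  have hnd : ¬ p ∣ (P.subgroupOf K).index := by
    rw [hidx]
    intro h
    exact hsp ((Nat.prime_dvd_prime_iff_eq hp hs).1 (hp.dvd_of_dvd_pow h))
  let Q : Sylow p K := hPp.toSylow hnd
  have hQ : (Q : Subgroup K) = P.subgroupOf K := rfl
  have h1 : Nat.card (Sylow p K) = (normalizer ((Q : Subgroup K) : Set K)).index := Q.card_eq_index_normalizer
  have h3 : Nat.card (Sylow p K) ≡ 1 [MOD p] := card_sylow_modEq_one p K
  rw [h1, hQ] at h3
  set M : Subgroup K := normalizer ((P.subgroupOf K : Subgroup K) : Set K) with hM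
  have hMi := M.card_mul_index
  rw [hcK] at hMi
  -- `|M|`
  have hM1 : s ^ b * p ^ c ∣ Nat.card M := by
    refine Nat.Coprime.mul_dvd_of_dvd_of_dvd
      (Nat.Coprime.pow _ _ ((Nat.coprime_primes hs hp).2 (Ne.symm hsp))) ?_ ?_
    · rw [← hcT, ← card_sub_of_le hTK]
      refine card_dvd_of_le ?_
      intro x hx
      rw [hM]
      apply mem_normalizer_fintype
      intro y hy
      rw [SetLike.mem_coe, mem_subgroupOf] at hy ⊢
      exact (mem_normalizer_iff.1 (hT₀N (mem_subgroupOf.1 hx)) (y : S)).1 hy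
    · rw [← hP, ← card_sub_of_le hPK]
      exact card_dvd_of_le le_normalizer
  have hM2 : Nat.card M ∣ s ^ b * n := by
    rw [← hN, ← card_map_of_injective (subtype_injective K) (K := M)]
    refine card_dvd_of_le ?_
    rintro _ ⟨x, hx, rfl⟩
    apply mem_normalizer_fintype
    intro y hy
    have h4 := (mem_normalizer_iff.1 hx ⟨y, hPK hy⟩).1 (mem_subgroupOf.2 hy)
    exact mem_subgroupOf.1 h4
  obtain ⟨t, ht⟩ := hM1
  have hti : t * M.index = s ^ (a - b) ∧ b ≤ a := by
    rw [ht] at hMi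
    have h4 : s ^ b * (t * M.index) = s ^ a := by
      apply Nat.eq_of_mul_eq_mul_right (pow_pos hp.pos c)
      rw [← hMi]; ring
    have h5 : b ≤ a := by
      have : s ^ b ∣ s ^ a := ⟨_, h4.symm⟩
      exact (Nat.pow_dvd_pow_iff_le_right hs.one_lt).1 this
    refine ⟨?_, h5⟩
    apply Nat.eq_of_mul_eq_mul_left (show 0 < s ^ b from pow_pos hs.pos b)
    rw [h4, ← pow_add]
    congr 1
    omega
  have ht1 : t = 1 := by
    obtain ⟨k, hk, hk2⟩ := (Nat.dvd_prime_pow hs).1 ⟨_, hti.1.symm⟩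
    rcases Nat.eq_zero_or_pos k with rfl | hk0
    · rw [hk2, pow_zero]
    · exfalso
      apply hn
      rw [ht] at hM2
      have h4 : p ^ c * t ∣ n := by
        apply Nat.dvd_of_mul_dvd_mul_left (show 0 < s ^ b from pow_pos hs.pos b)
        rwa [← mul_assoc]
      have h5 : s ∣ t := by rw [hk2]; exact dvd_pow_self s (by omega)
      exact (h5.mul_left _).trans h4
  rw [ht1, one_mul] at hti
  rw [← hti.1]
  exact h3

/-- **no `D_{s,p}`** -/
theorem nd_of_count [Finite S] {s p a b c m n : ℕ} (hs : s.Prime) (hp : p.Prime) (hsp : p ≠ s) (hS : Nat.card S = s ^ a * p ^ c * m)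
    (h2 : ¬ s ∣ m) (hm : ¬ p ∣ m) {P : Subgroup S} (hP : Nat.card P = p ^ c)
    (hN : Nat.card (normalizer (P : Set S)) = s ^ b * n) (hn : ¬ s ∣ n) (har : ¬ s ^ (a - b) % p = 1 % p) :
    ¬ Dom ({s, p} : Set ℕ) S := fun hD => har (mod_of_dom hs hp hsp hS h2 hm hP hN hn hD)

end Cfsg.Agent.H543.RV.G
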